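import Mathlib
import Cfsg.Agent.Lib.Helper81.CS3.NGDefs
import Cfsg.Agent.Lib.Helper71.CS3.Basics

/-!
# CS3 (S4284), part NG: package [STEPA]

`pkgStepA`: an abelian centralizer `C(w)` of class size `mn` contains an `r`-element of class
size `m`, `r` a prime not dividing `m`.  Dependencies: [MELT] and [SYL].
-/

set_option autoImplicit false

namespace Cfsg.Agent.Lib.Helper80.CS3

open Subgroup Cfsg.Agent.Lib.Helper81.CS3 Cfsg.Agent.Lib.Helper71.CS3

universe u

section

variable {G : Type u} [Group G]

theorem commute_conj80 {a x g : G} (h : Commute (g⁻¹ * a * g) x) :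
    Commute a (g * x * g⁻¹) := by
  have h' : g⁻¹ * a * g * x = x * (g⁻¹ * a * g) := h
  show a * (g * x * g⁻¹) = g * x * g⁻¹ * a
  have e1 : a * (g * x * g⁻¹) = g * (g⁻¹ * a * g * x) * g⁻¹ := by group
  rw [e1, h']
  group

theorem idx_conj80 (g x : G) : idx (g * x * g⁻¹) = idx x := by
  have h : centralizer ({g * x * g⁻¹} : Set G) =
      (centralizer ({x} : Set G)).comap (MulAut.conj g⁻¹).toMonoidHom := by
    ext y
    rw [Subgroup.mem_comap, Subgroup.mem_centralizer_singleton_iff,
      Subgroup.mem_centralizer_singleton_iff]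
    simp only [MulEquiv.coe_toMonoidHom, MulAut.conj_apply, inv_inv]
    constructor
    · intro h
      have e1 : g⁻¹ * y * g * x = g⁻¹ * (y * (g * x * g⁻¹)) * g := by group
      rw [e1, h]
      group
    · intro h
      have e1 : y * (g * x * g⁻¹) = g * (g⁻¹ * y * g * x) * g⁻¹ := by group
      rw [e1, h]
      group
  show (centralizer ({g * x * g⁻¹} : Set G)).index = (centralizer ({x} : Set G)).index
  rw [h]
  exact Subgroup.index_comap_of_surjective _ (MulAut.conj g⁻¹).surjective

theorem orderOf_conj80 (g x : G) : orderOf (g * x * g⁻¹) = orderOf x :=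
  orderOf_injective (MulAut.conj g).toMonoidHom (MulAut.conj g).injective x

/-- a Sylow `r`-subgroup centralizes a conjugate of any element of class size prime to `r`. -/
theorem exists_conj_commute80 [Finite G] {r : ℕ} [Fact r.Prime] (R : Sylow r G) (x0 : G)
    (h : ¬ r ∣ (centralizer ({x0} : Set G)).index) :
    ∃ g : G, ∀ y ∈ R, Commute y (g * x0 * g⁻¹) := by
  have hfix := R.isPGroup'.nonempty_fixed_point_of_prime_not_dvd_card
    (G ⧸ centralizer ({x0} : Set G)) (by rwa [← Subgroup.index_eq_card])
  obtain ⟨q, hq⟩ := hfix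
  induction q using QuotientGroup.induction_on with
  | H g =>
    refine ⟨g, fun y hy => ?_⟩
    have h1 := hq ⟨y, hy⟩
    have h2 : ((y * g : G) : G ⧸ centralizer ({x0} : Set G)) = (g : G ⧸ _) := h1
    rw [QuotientGroup.eq] at h2
    have h3 : g⁻¹ * y * g ∈ centralizer ({x0} : Set G) := by
      have := inv_mem h2
      have e : ((y * g)⁻¹ * g)⁻¹ = g⁻¹ * y * g := by group
      rwa [e] at this
    rw [Subgroup.mem_centralizer_singleton_iff] at h3
    exact commute_conj80 h3

end

theorem pkgStepA (hMelt : PkgMelt.{u}) (hSyl : PkgSyl.{u}) : PkgStepA.{u} := by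
  intro G _ _ m n hyp hng w hw hab
  have hm1 : 1 < m := hyp.2.1
  have hn1 : 1 < n := hyp.2.2.1
  obtain ⟨x0, r, k0, hr, hrm, hox0, hix0⟩ := hMelt m n hyp hng
  have : Fact r.Prime := ⟨hr⟩
  have hix0' : (centralizer ({x0} : Set G)).index = m := hix0
  have hx0nc : x0 ∉ center G := by
    intro h
    rw [← idx_eq_one_iff] at h
    omega
  obtain ⟨s, hs, hsm⟩ := Nat.exists_prime_and_dvd (by omega : m ≠ 1)
  obtain ⟨b, hbPM, hbx0⟩ := hSyl m n hyp s hs hsm x0
  have hbnc : b ∉ center G := hbPM.2.2.2
  have hib : (centralizer ({b} : Set G)).index = m * n := by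
    rcases idx_cases hyp b with h | h | h
    · exact absurd ((idx_eq_one_iff b).mp h) hbnc
    · exfalso
      apply hng
      obtain ⟨kb, hkb⟩ := hbPM.2.2.1
      exact ⟨b, h, s, kb, hs, hsm, hkb⟩
    · exact h
  have hw' : (centralizer ({w} : Set G)).index = m * n := hw
  have hmn0 : 0 < m * n := Nat.mul_pos (by omega) (by omega)
  have hcardeq : Nat.card (centralizer ({b} : Set G)) = Nat.card (centralizer ({w} : Set G)) := by
    have h1 := Subgroup.card_mul_index (centralizer ({b} : Set G))
    have h2 := Subgroup.card_mul_index (centralizer ({w} : Set G))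
    rw [hib] at h1
    rw [hw'] at h2
    exact Nat.eq_of_mul_eq_mul_right hmn0 (h1.trans h2.symm)
  -- a Sylow `r`-subgroup of `H = C(w)`
  obtain ⟨P⟩ : Nonempty (Sylow r (centralizer ({w} : Set G))) := inferInstance
  have hQle : (P : Subgroup (centralizer ({w} : Set G))).map (centralizer ({w} : Set G)).subtype
      ≤ centralizer ({w} : Set G) := Subgroup.map_subtype_le _
  have hQcard : Nat.card ((P : Subgroup (centralizer ({w} : Set G))).map
      (centralizer ({w} : Set G)).subtype) =
      r ^ (Nat.card (centralizer ({w} : Set G))).factorization r := by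
    rw [Subgroup.card_subtype]
    exact P.card_eq_multiplicity
  generalize (P : Subgroup (centralizer ({w} : Set G))).map
    (centralizer ({w} : Set G)).subtype = Q at hQle hQcard
  have hQp : IsPGroup r Q := IsPGroup.of_card hQcard
  have hex : ∃ y1 ∈ Q, y1 ∉ center G := by
    by_contra hcon
    push Not at hcon
    have hzp : IsPGroup r (zpowers x0) := by
      apply IsPGroup.of_card (n := k0)
      rw [Nat.card_zpowers, hox0]
    have hQn : Q.Normal := by
      refine ⟨fun q hq g => ?_⟩
      have h1 := Subgroup.mem_center_iff.mp (hcon q hq) g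
      rw [h1, mul_inv_cancel_right]
      exact hq
    have hT : IsPGroup r (zpowers x0 ⊔ Q : Subgroup G) := hzp.to_sup_of_normal_right hQp
    have hTle : zpowers x0 ⊔ Q ≤ centralizer ({b} : Set G) := by
      apply sup_le
      · rw [zpowers_le, mem_centralizer_singleton_iff]
        exact hbx0.symm.eq
      · intro q hq
        rw [mem_centralizer_singleton_iff]
        exact (Subgroup.mem_center_iff.mp (hcon q hq) b).symm
    obtain ⟨j, hj⟩ := IsPGroup.iff_card.mp hT
    have hdvd : r ^ j ∣ Nat.card (centralizer ({w} : Set G)) := by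
      rw [← hj, ← hcardeq]
      exact Subgroup.card_dvd_of_le hTle
    have hjle : j ≤ (Nat.card (centralizer ({w} : Set G))).factorization r :=
      (hr.pow_dvd_iff_le_factorization Nat.card_pos.ne').mp hdvd
    have hTQ : Nat.card (zpowers x0 ⊔ Q : Subgroup G) ≤ Nat.card Q := by
      rw [hj, hQcard]
      exact Nat.pow_le_pow_right hr.pos hjle
    have hQT : Q = zpowers x0 ⊔ Q := Subgroup.eq_of_le_of_card_ge le_sup_right hTQ
    have hx0Q : x0 ∈ Q := by
      rw [hQT]
      exact (le_sup_left : zpowers x0 ≤ zpowers x0 ⊔ Q) (mem_zpowers x0)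
    exact hx0nc (hcon x0 hx0Q)
  obtain ⟨y1, hy1Q, hy1nc⟩ := hex
  have hy1w : Commute y1 w := by
    have h1 := hQle hy1Q
    rw [mem_centralizer_singleton_iff] at h1
    exact h1
  obtain ⟨k1, hk1⟩ : ∃ k, orderOf y1 = r ^ k := by
    obtain ⟨k, hk⟩ := hQp ⟨y1, hy1Q⟩
    have h1 : y1 ^ r ^ k = 1 := by
      have h2 := congrArg Subtype.val hk
      simpa using h2
    obtain ⟨j, -, hj⟩ := (Nat.dvd_prime_pow hr).mp (orderOf_dvd_of_pow_eq_one h1)
    exact ⟨j, hj⟩
  rcases idx_cases hyp y1 with h | h | h
  · exact absurd ((idx_eq_one_iff y1).mp h) hy1nc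
  · exact ⟨y1, r, k1, hr, hrm, hk1, hy1w, h⟩
  · have hHle : centralizer ({w} : Set G) ≤ centralizer ({y1} : Set G) := by
      intro g hg
      rw [mem_centralizer_singleton_iff] at hg
      rw [mem_centralizer_singleton_iff]
      exact hab g y1 hg hy1w
    have hle2 : centralizer ({y1} : Set G) ≤ centralizer ({w} : Set G) := by
      have h1 := Subgroup.relIndex_mul_index hHle
      rw [h, hw'] at h1
      have h2 : (centralizer ({w} : Set G)).relIndex (centralizer ({y1} : Set G)) = 1 :=
        Nat.eq_of_mul_eq_mul_right hmn0 (h1.trans (one_mul _).symm)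
      exact Subgroup.relIndex_eq_one.mp h2
    have hzy : IsPGroup r (zpowers y1) := by
      apply IsPGroup.of_card (n := k1)
      rw [Nat.card_zpowers, hk1]
    obtain ⟨R, hR⟩ := hzy.exists_le_sylow
    have hy1R : y1 ∈ R := hR (mem_zpowers y1)
    have hnd : ¬ r ∣ (centralizer ({x0} : Set G)).index := by
      rw [hix0']
      exact hrm
    obtain ⟨g, hg⟩ := exists_conj_commute80 R x0 hnd
    refine ⟨g * x0 * g⁻¹, r, k0, hr, hrm, ?_, ?_, ?_⟩
    · rw [← hox0]
      exact orderOf_conj80 g x0
    · have h1 : Commute y1 (g * x0 * g⁻¹) := hg y1 hy1R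
      have h2 : g * x0 * g⁻¹ ∈ centralizer ({w} : Set G) :=
        hle2 (by rw [mem_centralizer_singleton_iff]; exact h1.symm.eq)
      rw [mem_centralizer_singleton_iff] at h2
      exact h2
    · rw [idx_conj80]
      exact hix0

end Cfsg.Agent.Lib.Helper80.CS3
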