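import Mathlib
import Cfsg.Agent.Lib.Helper41.CS3.GoodDefs
import Cfsg.Agent.Lib.Helper71.CS3.Basics
import Cfsg.Agent.Lib.Helper80.CS3.StepA

/-!
# CS3 (S4284), part GOOD: small tools shared by helper80's GOOD packages
-/

set_option autoImplicit false

namespace Cfsg.Agent.Lib.Helper80.CS3

open Subgroup Cfsg.Agent.Lib.Helper81.CS3 Cfsg.Agent.Lib.Helper71.CS3 Cfsg.Agent.Lib.Helper41.CS3

universe u

section

variable {G : Type u} [Group G]

theorem mem_cn_conj80 (g a y : G) : y ∈ Cn (g * a * g⁻¹) ↔ g⁻¹ * y * g ∈ Cn a := by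
  show y ∈ centralizer ({g * a * g⁻¹} : Set G) ↔ g⁻¹ * y * g ∈ centralizer ({a} : Set G)
  rw [Subgroup.mem_centralizer_singleton_iff, Subgroup.mem_centralizer_singleton_iff]
  constructor
  · intro h
    have e1 : g⁻¹ * y * g * a = g⁻¹ * (y * (g * a * g⁻¹)) * g := by group
    rw [e1, h]
    group
  · intro h
    have e1 : y * (g * a * g⁻¹) = g * (g⁻¹ * y * g * a) * g⁻¹ := by group
    rw [e1, h]
    group

theorem mem_cn_iff80 (a y : G) : y ∈ Cn a ↔ y * a = a * y := by
  show y ∈ centralizer ({a} : Set G) ↔ _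
  rw [Subgroup.mem_centralizer_singleton_iff]

theorem ab_cn_conj80 {a : G} (hab : Ab (Cn a)) (g : G) : Ab (Cn (g * a * g⁻¹)) := by
  intro x hx y hy
  rw [mem_cn_conj80] at hx hy
  have h := hab _ hx _ hy
  have e1 : x * y = g * ((g⁻¹ * x * g) * (g⁻¹ * y * g)) * g⁻¹ := by group
  rw [e1, h]
  group

theorem eq_of_le_of_index_eq80 [Finite G] {H K : Subgroup G} (hle : H ≤ K)
    (hidx : H.index = K.index) : H = K := by
  apply le_antisymm hle
  have h1 := Subgroup.relIndex_mul_index hle
  rw [hidx] at h1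
  have hK : 0 < K.index := Nat.pos_of_ne_zero Subgroup.index_ne_zero_of_finite
  have h2 : H.relIndex K = 1 := Nat.eq_of_mul_eq_mul_right hK (h1.trans (one_mul _).symm)
  exact Subgroup.relIndex_eq_one.mp h2

/-- a non-central element of an abelian centralizer of index `m` has the same centralizer. -/
theorem ab_cent_eq80 [Finite G] {m n : ℕ} (hyp : Hyp G m n) {c v : G} (hic : ix c = m)
    (hab : Ab (Cn c)) (hv : v ∈ Cn c) (hvnc : v ∉ center G) : Cn v = Cn c := by
  have hm1 : 1 < m := hyp.2.1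
  have hn1 : 1 < n := hyp.2.2.1
  have hle : Cn c ≤ Cn v := by
    intro h hh
    rw [mem_cn_iff80]
    exact hab h hh v hv
  have hdvd : (Cn v).index ∣ (Cn c).index := Subgroup.index_dvd_of_le hle
  have hic' : (Cn c).index = m := hic
  rw [hic'] at hdvd
  have hiv : (Cn v).index = m := by
    rcases idx_cases hyp v with h | h | h
    · exact absurd ((idx_eq_one_iff v).mp h) hvnc
    · exact h
    · exfalso
      have h' : (Cn v).index = m * n := h
      rw [h'] at hdvd
      have := Nat.le_of_dvd (by omega) hdvd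
      nlinarith
  exact (eq_of_le_of_index_eq80 hle (hic'.trans hiv.symm)).symm

/-- a Sylow `t`-subgroup, `t ∣ n`, is not central. -/
theorem sylow_n_not_central80 [Finite G] {m n : ℕ} (hyp : Hyp G m n) {t : ℕ} [Fact t.Prime]
    (htn : t ∣ n) (T : Sylow t G) : ∃ v ∈ T, v ∉ center G := by
  by_contra hcon
  push Not at hcon
  obtain ⟨w, hw⟩ := exists_idx_mn hyp
  have hle : (T : Subgroup G) ≤ centralizer ({w} : Set G) := by
    intro y hy
    rw [Subgroup.mem_centralizer_singleton_iff]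
    exact (Subgroup.mem_center_iff.mp (hcon y hy) w).symm
  apply T.not_dvd_index
  have h1 := Subgroup.index_dvd_of_le hle
  rw [hw] at h1
  exact (htn.mul_left m).trans h1

theorem not_dvd_m_of_dvd_n80 {m n : ℕ} (hcop : m.Coprime n) {t : ℕ} (ht : t.Prime)
    (htn : t ∣ n) : ¬ t ∣ m := by
  intro htm
  have h1 : t ∣ Nat.gcd m n := Nat.dvd_gcd htm htn
  rw [hcop] at h1
  exact ht.one_lt.ne' (Nat.dvd_one.mp h1)

end

end Cfsg.Agent.Lib.Helper80.CS3
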