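import Mathlib
import Cfsg.Agent.Lib.Helper41.CS3.GoodDefs
import Cfsg.Agent.Lib.Helper24.CS3.Basics
import Cfsg.Agent.Lib.Helper80.CS3.GoodTools

/-!
# CS3 (S4284), part GOOD: package [G3] (`N` abelian ⟹ `C(a)` abelian)
-/

set_option autoImplicit false

namespace Cfsg.Agent.Lib.Helper80.CS3

open Subgroup Cfsg.Agent.Lib.Helper81.CS3 Cfsg.Agent.Lib.Helper71.CS3 Cfsg.Agent.Lib.Helper41.CS3

universe u

section

variable {G : Type u} [Group G]

/-- a non-central element whose centralizer contains a centralizer of index `m` has the same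
centralizer. -/
theorem cent_eq_of_le80 [Finite G] {m n : ℕ} (hyp : Hyp G m n) {c v : G} (hic : ix c = m)
    (hle : Cn c ≤ Cn v) (hvnc : v ∉ center G) : Cn v = Cn c ∧ ix v = m := by
  have hm1 : 1 < m := hyp.2.1
  have hn1 : 1 < n := hyp.2.2.1
  have hdvd : (Cn v).index ∣ (Cn c).index := Subgroup.index_dvd_of_le hle
  have hic' : (Cn c).index = m := hic
  rw [hic'] at hdvd
  have hiv : (Cn v).index = m := by
    rcases idx_cases hyp v with h | h | h
    · exact absurd ((idx_eq_one_iff v).mp h) hvnc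
    · exact h
    · exfalso
      have h' : (Cn v).index = m * n := h
      rw [h'] at hdvd
      have := Nat.le_of_dvd (by omega) hdvd
      nlinarith
  exact ⟨(eq_of_le_of_index_eq80 hle (hic'.trans hiv.symm)).symm, hiv⟩

/-- elements of `Sa ⊔ N` are products when `Sa` and `N` commute. -/
theorem exists_mul_of_comm80 {Sa N : Subgroup G} (hc : Comm Sa N) {x : G} (hx : x ∈ Sa ⊔ N) :
    ∃ σ ∈ Sa, ∃ ν ∈ N, x = σ * ν := by
  have hcomm : ∀ (σ : Sa) (ν : N), Commute (Sa.subtype σ) (N.subtype ν) :=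
    fun σ ν => hc σ σ.2 ν ν.2
  have hrange : (Sa.subtype.noncommCoprod N.subtype hcomm).range = Sa ⊔ N := by
    rw [MonoidHom.noncommCoprod_range, Subgroup.range_subtype, Subgroup.range_subtype]
  rw [← hrange] at hx
  obtain ⟨p, hp⟩ := hx
  refine ⟨p.1, p.1.2, p.2, p.2.2, ?_⟩
  rw [← hp, MonoidHom.noncommCoprod_apply]
  rfl

theorem card_sup_dvd_of_comm80 [Finite G] {Sa N : Subgroup G} (hc : Comm Sa N) :
    Nat.card (Sa ⊔ N : Subgroup G) ∣ Nat.card Sa * Nat.card N := by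
  have hcomm : ∀ (σ : Sa) (ν : N), Commute (Sa.subtype σ) (N.subtype ν) :=
    fun σ ν => hc σ σ.2 ν ν.2
  have hrange : (Sa.subtype.noncommCoprod N.subtype hcomm).range = Sa ⊔ N := by
    rw [MonoidHom.noncommCoprod_range, Subgroup.range_subtype, Subgroup.range_subtype]
  rw [← hrange, ← Nat.card_prod]
  exact Subgroup.card_range_dvd _

end

/-- [G3] -/
theorem pkgG3 : Cfsg.Agent.Lib.Helper41.CS3.PkgG3.{u} := by
  intro G _ _ m n hyp s a Sa N hgood hdec hN
  have hm1 : 1 < m := hyp.2.1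
  have hn1 : 1 < n := hyp.2.2.1
  have hs : s.Prime := hgood.sp
  have hsm : s ∣ m := hgood.sm
  have hia : ix a = m := hgood.ixa
  have hia' : (centralizer ({a} : Set G)).index = m := hia
  have hsup : Sa ⊔ N = Cn a := hdec.sup
  have hSale : Sa ≤ Cn a := hsup ▸ le_sup_left
  have hNle : N ≤ Cn a := hsup ▸ le_sup_right
  have hdecomp : ∀ x ∈ Cn a, ∃ σ ∈ Sa, ∃ ν ∈ N, x = σ * ν := by
    intro x hx
    rw [← hsup] at hx
    exact exists_mul_of_comm80 hdec.comm hx
  -- elements of `N` are central in `C(a)`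
  have hNcent : ∀ ν ∈ N, ∀ h ∈ Cn a, h * ν = ν * h := by
    intro ν hν h hh
    obtain ⟨σ1, hσ1, ν1, hν1, rfl⟩ := hdecomp h hh
    have e1 : σ1 * ν = ν * σ1 := hdec.comm σ1 hσ1 ν hν
    have e2 : ν1 * ν = ν * ν1 := hN ν1 hν1 ν hν
    rw [mul_assoc, e2, ← mul_assoc, e1, mul_assoc]
  -- a prime `t ∣ n` and a non-central `t`-element of `C(a)`
  obtain ⟨t, ht, htn⟩ := Nat.exists_prime_and_dvd (by omega : n ≠ 1)
  have : Fact t.Prime := ⟨ht⟩
  have : Fact s.Prime := ⟨hs⟩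
  have htm : ¬ t ∣ m := not_dvd_m_of_dvd_n80 hyp.2.2.2.1 ht htn
  have hts : t ≠ s := by
    rintro rfl
    exact htm hsm
  obtain ⟨v, hvC, hvnc, k, hk⟩ : ∃ v, v ∈ Cn a ∧ v ∉ center G ∧ ∃ k, orderOf v = t ^ k := by
    obtain ⟨T⟩ : Nonempty (Sylow t G) := inferInstance
    obtain ⟨v0, hv0T, hv0nc⟩ := sylow_n_not_central80 hyp htn T
    obtain ⟨g0, hg0⟩ := exists_conj_commute80 T a (by rw [hia']; exact htm)
    refine ⟨g0⁻¹ * v0 * g0, ?_, ?_, ?_⟩
    · rw [← mem_cn_conj80, mem_cn_iff80]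
      exact (hg0 v0 hv0T).eq
    · intro hc
      apply hv0nc
      have h1 := (inferInstance : (center G).Normal).conj_mem _ hc g0
      have e : g0 * (g0⁻¹ * v0 * g0) * g0⁻¹ = v0 := by group
      rwa [e] at h1
    · obtain ⟨k, hk⟩ := T.isPGroup' ⟨v0, hv0T⟩
      have h1 : v0 ^ t ^ k = 1 := by
        have h2 : (((⟨v0, hv0T⟩ : (T : Subgroup G)) ^ t ^ k : (T : Subgroup G)) : G)
            = ((1 : (T : Subgroup G)) : G) := by rw [hk]
        rw [Subgroup.coe_pow, Subgroup.coe_one] at h2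
        exact h2
      obtain ⟨j, -, hj⟩ := (Nat.dvd_prime_pow ht).mp (orderOf_dvd_of_pow_eq_one h1)
      refine ⟨j, ?_⟩
      have h3 := orderOf_conj80 g0⁻¹ v0
      rw [inv_inv] at h3
      rw [h3, hj]
  obtain ⟨σ, hσ, ν, hν, hvσν⟩ := hdecomp _ hvC
  obtain ⟨j, hj⟩ := IsPGroup.iff_card.mp hdec.pS
  -- `v' = v ^ |Sa| ∈ N`
  obtain ⟨v', hv'N, hv'nc, hv'ord⟩ : ∃ v', v' ∈ N ∧ v' ∉ center G ∧ orderOf v' ∣ t ^ k := by
    refine ⟨v ^ Nat.card Sa, ?_, ?_, ?_⟩
    · have hσq : σ ^ Nat.card Sa = 1 := by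
        have h1 : (⟨σ, hσ⟩ : Sa) ^ Nat.card Sa = 1 := pow_card_eq_one'
        have h2 : (((⟨σ, hσ⟩ : Sa) ^ Nat.card Sa : Sa) : G) = ((1 : Sa) : G) := by rw [h1]
        rw [Subgroup.coe_pow, Subgroup.coe_one] at h2
        exact h2
      have hσν : Commute σ ν := hdec.comm σ hσ ν hν
      rw [hvσν, hσν.mul_pow, hσq, one_mul]
      exact pow_mem hν _
    · intro hc
      have hcop : (Nat.card Sa).Coprime (orderOf v) := by
        rw [hj, hk]
        exact Nat.Coprime.pow j k ((Nat.coprime_primes hs ht).mpr (Ne.symm hts))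
      obtain ⟨e, he⟩ := exists_pow_eq_self_of_coprime hcop
      apply hvnc
      rw [← he]
      exact pow_mem hc e
    · rw [← hk]
      exact orderOf_pow_dvd _
  -- `C(v') = C(a)`
  have hle' : Cn a ≤ Cn v' := by
    intro h hh
    rw [mem_cn_iff80]
    exact hNcent v' hv'N h hh
  obtain ⟨hCv', hiv'⟩ := cent_eq_of_le80 hyp hia hle' hv'nc
  -- elements of `Sa` are central in `C(a)`
  have hScent : ∀ u ∈ Sa, ∀ h ∈ Cn a, h * u = u * h := by
    intro u hu h hh
    obtain ⟨i, hi⟩ : ∃ i, orderOf u = s ^ i := by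
      obtain ⟨i, hi⟩ := hdec.pS ⟨u, hu⟩
      have h1 : u ^ s ^ i = 1 := by
        have h2 : (((⟨u, hu⟩ : Sa) ^ s ^ i : Sa) : G) = ((1 : Sa) : G) := by rw [hi]
        rw [Subgroup.coe_pow, Subgroup.coe_one] at h2
        exact h2
      obtain ⟨j', -, hj'⟩ := (Nat.dvd_prime_pow hs).mp (orderOf_dvd_of_pow_eq_one h1)
      exact ⟨j', hj'⟩
    have hco : (orderOf v').Coprime (orderOf u) := by
      rw [hi]
      exact Nat.Coprime.coprime_dvd_left hv'ord
        (Nat.Coprime.pow k i ((Nat.coprime_primes ht hs).mpr hts))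
    have hcomm : Commute v' u := (hdec.comm u hu v' hv'N).symm
    have hrel := Cfsg.Agent.Lib.Helper24.CS3.relIndex_of_coprime hyp v' u hiv' hcomm hco
    have hrel' : (Cn u).relIndex (Cn a) = 1 ∨ (Cn u).relIndex (Cn a) = n := by
      rw [← hCv']
      exact hrel
    have hNu : N ≤ Cn u := by
      intro ν hν
      rw [mem_cn_iff80]
      exact (hdec.comm u hu ν hν).symm
    have hd1 : (Cn u).relIndex (Cn a) ∣ N.relIndex (Cn a) :=
      Subgroup.relIndex_dvd_of_le_left (Cn a) hNu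
    have hd2 : N.relIndex (Cn a) ∣ Nat.card Sa := by
      have h1 := Subgroup.relIndex_mul_relIndex ⊥ N (Cn a) bot_le hNle
      rw [Subgroup.relIndex_bot_left, Subgroup.relIndex_bot_left] at h1
      have h2 := card_sup_dvd_of_comm80 hdec.comm
      rw [hsup, ← h1, mul_comm (Nat.card Sa)] at h2
      exact Nat.dvd_of_mul_dvd_mul_left Nat.card_pos h2
    have hd3 : (Cn u).relIndex (Cn a) ∣ s ^ j := hj ▸ hd1.trans hd2
    rcases hrel' with h1 | h1
    · have h2 := Subgroup.relIndex_eq_one.mp h1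
      have h3 := h2 hh
      rw [mem_cn_iff80] at h3
      exact h3
    · exfalso
      rw [h1] at hd3
      have hcop : n.Coprime (s ^ j) := by
        apply Nat.Coprime.pow_right
        exact (Nat.Coprime.coprime_dvd_left hsm hyp.2.2.2.1).symm
      have := Nat.Coprime.eq_one_of_dvd hcop hd3
      omega
  -- conclusion
  intro x hx y hy
  obtain ⟨σ1, hσ1, ν1, hν1, rfl⟩ := hdecomp y hy
  have e1 : x * σ1 = σ1 * x := hScent σ1 hσ1 x hx
  have e2 : x * ν1 = ν1 * x := hNcent ν1 hν1 x hx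
  rw [← mul_assoc, e1, mul_assoc, e2, ← mul_assoc]

end Cfsg.Agent.Lib.Helper80.CS3
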