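import Mathlib
import Cfsg.Agent.Lib.Helper41.CS3.GoodDefs
import Cfsg.Agent.Lib.Helper80.CS3.GoodTools

/-!
# CS3 (S4284), part GOOD: packages [G4C] and [G4D]
-/

set_option autoImplicit false

namespace Cfsg.Agent.Lib.Helper80.CS3

open Subgroup Cfsg.Agent.Lib.Helper81.CS3 Cfsg.Agent.Lib.Helper41.CS3

universe u

/-- [G4C] every element of class size `m` has centralizer conjugate to the abelian `C(a)`. -/
theorem pkgG4c : Cfsg.Agent.Lib.Helper41.CS3.PkgG4c.{u} := by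
  intro G _ _ m n hyp a hia hab x hix
  have hm1 : 1 < m := hyp.2.1
  have hn1 : 1 < n := hyp.2.2.1
  obtain ⟨t, ht, htn⟩ := Nat.exists_prime_and_dvd (by omega : n ≠ 1)
  have : Fact t.Prime := ⟨ht⟩
  have htm : ¬ t ∣ m := not_dvd_m_of_dvd_n80 hyp.2.2.2.1 ht htn
  obtain ⟨T⟩ : Nonempty (Sylow t G) := inferInstance
  obtain ⟨v, hvT, hvnc⟩ := sylow_n_not_central80 hyp htn T
  have hia' : (centralizer ({a} : Set G)).index = m := hia
  have hix' : (centralizer ({x} : Set G)).index = m := hix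
  obtain ⟨g0, hg0⟩ := exists_conj_commute80 T a (by rw [hia']; exact htm)
  obtain ⟨g1, hg1⟩ := exists_conj_commute80 T x (by rw [hix']; exact htm)
  have hab' : Ab (Cn (g0 * a * g0⁻¹)) := ab_cn_conj80 hab g0
  have hia2 : ix (g0 * a * g0⁻¹) = m := (idx_conj80 g0 a).trans hia
  have hix2 : ix (g1 * x * g1⁻¹) = m := (idx_conj80 g1 x).trans hix
  have hva : v ∈ Cn (g0 * a * g0⁻¹) := by
    rw [mem_cn_iff80]
    exact (hg0 v hvT).eq
  have hCv : Cn v = Cn (g0 * a * g0⁻¹) := ab_cent_eq80 hyp hia2 hab' hva hvnc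
  have hx'a : g1 * x * g1⁻¹ ∈ Cn (g0 * a * g0⁻¹) := by
    rw [← hCv, mem_cn_iff80]
    exact (hg1 v hvT).symm.eq
  have hle : Cn (g0 * a * g0⁻¹) ≤ Cn (g1 * x * g1⁻¹) := by
    intro h hh
    rw [mem_cn_iff80]
    exact hab' h hh _ hx'a
  have heq : Cn (g0 * a * g0⁻¹) = Cn (g1 * x * g1⁻¹) :=
    eq_of_le_of_index_eq80 hle (hia2.trans hix2.symm)
  refine ⟨g1⁻¹ * g0, ?_⟩
  ext y
  have h1 : y ∈ Cn x ↔ g1 * y * g1⁻¹ ∈ Cn (g1 * x * g1⁻¹) := by
    rw [mem_cn_conj80]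
    have e : g1⁻¹ * (g1 * y * g1⁻¹) * g1 = y := by group
    rw [e]
  have h2 : y ∈ Cn (g1⁻¹ * g0 * a * (g1⁻¹ * g0)⁻¹) ↔ g1 * y * g1⁻¹ ∈ Cn (g0 * a * g0⁻¹) := by
    rw [mem_cn_conj80, mem_cn_conj80]
    have e : (g1⁻¹ * g0)⁻¹ * y * (g1⁻¹ * g0) = g0⁻¹ * (g1 * y * g1⁻¹) * g0 := by group
    rw [e]
  rw [h1, h2, heq]

/-- [G4D] an `r`-element, `r ∤ m`, does not have class size `m n`. -/
theorem pkgG4d : Cfsg.Agent.Lib.Helper41.CS3.PkgG4d.{u} := by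
  intro G _ _ m n hyp a hia hab r v hr hrm hv
  have hm1 : 1 < m := hyp.2.1
  have hn1 : 1 < n := hyp.2.2.1
  have : Fact r.Prime := ⟨hr⟩
  obtain ⟨k, hk⟩ := hv
  have hzp : IsPGroup r (zpowers v) := by
    apply IsPGroup.of_card (n := k)
    rw [Nat.card_zpowers, hk]
  obtain ⟨R, hR⟩ := hzp.exists_le_sylow
  have hvR : v ∈ R := hR (mem_zpowers v)
  have hia' : (centralizer ({a} : Set G)).index = m := hia
  obtain ⟨g, hg⟩ := exists_conj_commute80 R a (by rw [hia']; exact hrm)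
  have hab' := ab_cn_conj80 hab g
  have hia2 : ix (g * a * g⁻¹) = m := (idx_conj80 g a).trans hia
  have hva : v ∈ Cn (g * a * g⁻¹) := by
    rw [mem_cn_iff80]
    exact (hg v hvR).eq
  have hle : Cn (g * a * g⁻¹) ≤ Cn v := by
    intro h hh
    rw [mem_cn_iff80]
    exact hab' h hh v hva
  have hdvd : (Cn v).index ∣ (Cn (g * a * g⁻¹)).index := Subgroup.index_dvd_of_le hle
  intro hiv
  have hiv' : (Cn v).index = m * n := hiv
  have hia3 : (Cn (g * a * g⁻¹)).index = m := hia2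
  rw [hiv', hia3] at hdvd
  have := Nat.le_of_dvd (by omega) hdvd
  nlinarith

end Cfsg.Agent.Lib.Helper80.CS3
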