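import Mathlib
import Cfsg.Agent.Lib.Helper41.CS3.GoodDefs
import Cfsg.Agent.Lib.Helper88.CS3.Syl
import Cfsg.Agent.Lib.Helper80.CS3.GoodTools

/-!
# CS3 (S4284), part GOOD: packages [NC] and [CONJ]
-/

set_option autoImplicit false

namespace Cfsg.Agent.Lib.Helper80.CS3

open Subgroup Cfsg.Agent.Lib.Helper81.CS3 Cfsg.Agent.Lib.Helper41.CS3

universe u

/-- [NC] of part GOOD: every centralizer contains a non-central `s`-element. -/
theorem pkgGoodNC : Cfsg.Agent.Lib.Helper41.CS3.PkgNC.{u} := by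
  intro G _ _ m n hyp s hs hsm x
  obtain ⟨b, hb, hbx⟩ := Cfsg.Agent.Lib.Helper88.CS3.pkgSyl m n hyp s hs hsm x
  refine ⟨b, ?_, hb.2.2.1, hb.2.2.2⟩
  rw [mem_cn_iff80]
  exact hbx.eq

/-- [CONJ] -/
theorem pkgConj : Cfsg.Agent.Lib.Helper41.CS3.PkgConj.{u} := by
  intro G _ _ s S a g hnrm
  refine ⟨g⁻¹ • S, ?_⟩
  intro σ hσ h hh
  have hσ' : g * σ * g⁻¹ ∈ (S : Subgroup G) := by
    rw [Sylow.coe_subgroup_smul, Subgroup.mem_pointwise_smul_iff_inv_smul_mem] at hσ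
    simpa [MulAut.smul_def] using hσ
  have hh' : g * h * g⁻¹ ∈ Cn (g * a * g⁻¹) := by
    rw [mem_cn_conj80]
    have e : g⁻¹ * (g * h * g⁻¹) * g = h := by group
    rw [e]
    exact hh
  have h1 := hnrm _ hσ' _ hh'
  rw [mem_cn_conj80] at h1
  have e : g⁻¹ * (g * σ * g⁻¹ * (g * h * g⁻¹) * (g * σ * g⁻¹)⁻¹) * g = σ * h * σ⁻¹ := by group
  rw [e] at h1
  exact h1

end Cfsg.Agent.Lib.Helper80.CS3
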