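import Mathlib
import Cfsg.Agent.Lib.Helper81.CS3.NGDefs
import Cfsg.Agent.Lib.Helper71.CS3.Basics

/-!
# CS3 (S4284), part NG: package [NC]

`pkgNC`: for a non-central `s`-element `b` (`s ∣ m`), the `s'`-part `A_b` of `C(b)` is not
central.  Dependencies: [STR], [MELT], [SYL].
-/

set_option autoImplicit false

namespace Cfsg.Agent.Lib.Helper80.CS3

open Subgroup Cfsg.Agent.Lib.Helper81.CS3 Cfsg.Agent.Lib.Helper71.CS3

universe u

theorem pkgNC (hStr : PkgStr.{u}) (hMelt : PkgMelt.{u}) (hSyl : PkgSyl.{u}) : PkgNC.{u} := by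
  intro G _ _ m n hyp hng s b hb
  have hm1 : 1 < m := hyp.2.1
  have hn1 : 1 < n := hyp.2.2.1
  have hs : s.Prime := hb.1
  have hsm : s ∣ m := hb.2.1
  obtain ⟨x, r, k, hr, hrm, hox, hix⟩ := hMelt m n hyp hng
  have hix' : (centralizer ({x} : Set G)).index = m := hix
  have hxnc : x ∉ center G := by
    intro h
    rw [← idx_eq_one_iff] at h
    omega
  have hrs : r ≠ s := by
    rintro rfl
    exact hrm hsm
  obtain ⟨b0, hb0, hb0x⟩ := hSyl m n hyp s hs hsm x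
  obtain ⟨-, Sb, Ab, hSb, hAb, -, hcard, ⟨j, hj⟩, hcop⟩ := hStr m n hyp hng s b hb
  obtain ⟨-, Sb0, Ab0, hSb0, hAb0, -, hcard0, ⟨j0, hj0⟩, hcop0⟩ := hStr m n hyp hng s b0 hb0
  by_contra hcon
  push Not at hcon
  have hmn0 : 0 < m * n := Nat.mul_pos (by omega) (by omega)
  have h1 : Nat.card Sb * Nat.card Ab = Nat.card Sb0 * Nat.card Ab0 :=
    Nat.eq_of_mul_eq_mul_right hmn0 (hcard.trans hcard0.symm)
  rw [hj, hj0] at h1
  have hle1 : s ^ j ∣ s ^ j0 := by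
    have hd : s ^ j ∣ s ^ j0 * Nat.card Ab0 := ⟨Nat.card Ab, h1.symm⟩
    exact (Nat.Coprime.pow_left j hcop0.symm).dvd_of_dvd_mul_right hd
  have hle2 : s ^ j0 ∣ s ^ j := by
    have hd : s ^ j0 ∣ s ^ j * Nat.card Ab := ⟨Nat.card Ab0, h1⟩
    exact (Nat.Coprime.pow_left j0 hcop.symm).dvd_of_dvd_mul_right hd
  have hpow : s ^ j = s ^ j0 := Nat.dvd_antisymm hle1 hle2
  have hAcard : Nat.card Ab = Nat.card Ab0 := by
    rw [hpow] at h1
    exact Nat.eq_of_mul_eq_mul_left (pow_pos hs.pos j0) h1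
  have hle : Ab ≤ Ab0 := by
    intro u hu
    obtain ⟨hub, huc⟩ := (hAb u).mp hu
    refine (hAb0 u).mpr ⟨?_, huc⟩
    exact (Subgroup.mem_center_iff.mp (hcon u hub huc) b0).symm
  have hEq : Ab = Ab0 := Subgroup.eq_of_le_of_card_ge hle (le_of_eq hAcard.symm)
  have hx0 : x ∈ Ab0 := by
    refine (hAb0 x).mpr ⟨hb0x.symm, ?_⟩
    rw [hox]
    exact Nat.Coprime.pow_left k ((Nat.coprime_primes hr hs).mpr hrs)
  rw [← hEq] at hx0
  obtain ⟨hxb, hxc⟩ := (hAb x).mp hx0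
  exact hxnc (hcon x hxb hxc)

end Cfsg.Agent.Lib.Helper80.CS3
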